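import Mathlib

/-!
# S5917, type D: the fixed space of `z` on `L₀` has dimension at least 20 (helper198)

Abstract linear algebra over a field of characteristic two. `ψ` an isometry of an 8-dimensional quadratic space with
`ψ² = 1`, `rank (ψ + 1) = 4`; `z` acts on `L` with `ρ (z x) = ψ ρ(x) ψ + c(x)`.
-/

set_option autoImplicit false
set_option linter.unusedSectionVars false

namespace Cfsg.Agent.H198.L34

open Module

section one

variable {K : Type*} [Field K] [CharP K 2] {U : Type*} [AddCommGroup U] [Module K U]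

theorem kadd (a : K) : a + a = 0 := CharTwo.add_self_eq_zero a

theorem keq {a b : K} (h : a + b = 0) : a = b := CharTwo.add_eq_zero.1 h

/-- a quadratic space with an involution -/
structure QS (B : LinearMap.BilinForm K U) (Q : U → K) (ψ : U →ₗ[K] U) : Prop where
  nd : ∀ v, (∀ w, B v w = 0) → v = 0
  pol : ∀ x y, Q (x + y) = Q x + Q y + B x y
  inv : ∀ u, ψ (ψ u) = u
  iso : ∀ u, Q (ψ u) = Q u

variable {B : LinearMap.BilinForm K U} {Q : U → K} {ψ : U →ₗ[K] U}

theorem QS.self (h : QS B Q ψ) (u : U) : B u u = 0 := by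
  have h0 : Q 0 = 0 := by
    have h1 := h.pol 0 0
    rw [add_zero, map_zero, add_zero, kadd] at h1
    exact h1
  have h1 := h.pol u u
  have h2 : u + u = 0 := by
    have h3 : (2 : K) • u = 0 := by rw [show (2 : K) = 0 from CharP.cast_eq_zero K 2, zero_smul]
    rwa [two_smul] at h3
  rw [h2, h0, kadd, zero_add] at h1
  exact h1.symm

theorem QS.symm (h : QS B Q ψ) (u w : U) : B u w = B w u := by
  have h1 := h.self (u + w)
  rw [map_add, map_add, LinearMap.add_apply, LinearMap.add_apply, h.self, h.self, zero_add, add_zero] at h1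
  exact keq (by rw [add_comm]; exact h1)

theorem QS.isom (h : QS B Q ψ) (u w : U) : B (ψ u) (ψ w) = B u w := by
  have h1 := h.pol (ψ u) (ψ w)
  rw [← map_add, h.iso, h.iso, h.iso, h.pol] at h1
  exact (add_left_cancel h1).symm

theorem QS.adj (h : QS B Q ψ) (u w : U) : B (ψ u) w = B u (ψ w) := by
  rw [← h.isom u (ψ w), h.inv]

/-- a basis adapted to `ψ` -/
theorem QS.exists_e [FiniteDimensional K U] (h : QS B Q ψ) (hU : finrank K U = 8)
    (hr : finrank K (LinearMap.range (ψ + 1)) = 4) :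
    ∃ e : Fin 4 → U, ∀ u : U, ∃ a b : Fin 4 → K, u = ∑ k, a k • e k + ∑ k, b k • ψ (e k) := by
  let b := finBasisOfFinrankEq K (LinearMap.range (ψ + 1)) hr
  choose e he using fun k => (b k).2
  have hee : ∀ u, (ψ + 1) ((ψ + 1) u) = 0 := by
    intro u
    have h3 : ∀ x : U, x + x = 0 := fun x => by
      have h4 : (2 : K) • x = 0 := by rw [show (2 : K) = 0 from CharP.cast_eq_zero K 2, zero_smul]
      rwa [two_smul] at h4
    simp only [LinearMap.add_apply, Module.End.one_apply, map_add, h.inv]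
    rw [show u + ψ u + (ψ u + u) = (u + u) + (ψ u + ψ u) by abel, h3, h3, add_zero]
  have hle : LinearMap.range (ψ + 1) ≤ LinearMap.ker (ψ + 1) := by
    rintro _ ⟨x, rfl⟩
    exact hee x
  have hk : LinearMap.range (ψ + 1) = LinearMap.ker (ψ + 1) := by
    apply Submodule.eq_of_le_of_finrank_eq hle
    have h4 := LinearMap.finrank_range_add_finrank_ker (ψ + 1)
    omega
  have hx : ∀ x ∈ LinearMap.range (ψ + 1), ∃ a : Fin 4 → K, x = ∑ k, a k • ((ψ + 1) (e k)) := by
    intro x hx
    refine ⟨b.repr ⟨x, hx⟩, ?_⟩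
    have h5 : ((∑ k, b.repr ⟨x, hx⟩ k • b k : LinearMap.range (ψ + 1)) : U) = x :=
      congrArg Subtype.val (b.sum_repr ⟨x, hx⟩)
    rw [Submodule.coe_sum] at h5
    refine h5.symm.trans (Finset.sum_congr rfl fun k _ => ?_)
    rw [Submodule.coe_smul, he]
  refine ⟨e, fun u => ?_⟩
  obtain ⟨a, ha⟩ := hx _ (LinearMap.mem_range_self (ψ + 1) u)
  have h6 : u - ∑ k, a k • e k ∈ LinearMap.ker (ψ + 1) := by
    rw [LinearMap.mem_ker, map_sub, ha, map_sum]
    simp only [map_smul, sub_self]
  rw [← hk] at h6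
  obtain ⟨c, hc⟩ := hx _ h6
  refine ⟨fun k => a k + c k, c, ?_⟩
  rw [sub_eq_iff_eq_add] at hc
  rw [hc]
  simp only [LinearMap.add_apply, Module.End.one_apply, smul_add, add_smul, Finset.sum_add_distrib]
  abel

/-- **the space of the differences has dimension at most 12** -/
theorem QS.bound [FiniteDimensional K U] (h : QS B Q ψ) (hU : finrank K U = 8)
    (hr : finrank K (LinearMap.range (ψ + 1)) = 4) (W : Submodule K (Module.End K U))
    (h1 : ∀ y ∈ W, ∀ u, B (y u) u = 0) (h2 : ∀ y ∈ W, ∀ u w, B (y (ψ u)) (ψ w) = B (y u) w)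
    (h3 : ∀ y ∈ W, ∀ u, B (y u) (ψ u) = 0) : finrank K W ≤ 12 := by
  obtain ⟨e, he⟩ := h.exists_e hU hr
  let I := {p : Fin 4 × Fin 4 // p.1 < p.2}
  have hI : Fintype.card I = 6 := by decide
  let Φ : W →ₗ[K] (I → K) × (I → K) :=
    { toFun := fun y => (fun p => B (y.1 (e p.1.1)) (e p.1.2), fun p => B (y.1 (e p.1.1)) (ψ (e p.1.2)))
      map_add' := fun x y => by
        refine Prod.ext (funext fun p => ?_) (funext fun p => ?_)
        · change B ((x.1 + y.1) _) _ = _
          rw [LinearMap.add_apply, map_add, LinearMap.add_apply]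
          rfl
        · change B ((x.1 + y.1) _) _ = _
          rw [LinearMap.add_apply, map_add, LinearMap.add_apply]
          rfl
      map_smul' := fun c x => by
        refine Prod.ext (funext fun p => ?_) (funext fun p => ?_)
        · change B ((c • x.1) _) _ = _
          rw [LinearMap.smul_apply, map_smul, LinearMap.smul_apply]
          rfl
        · change B ((c • x.1) _) _ = _
          rw [LinearMap.smul_apply, map_smul, LinearMap.smul_apply]
          rfl }
  have hsym : ∀ y ∈ W, ∀ u w, B (y u) w = B (y w) u := by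
    intro y hy u w
    have h4 := h1 y hy (u + w)
    simp only [map_add, LinearMap.add_apply] at h4
    rw [h1 y hy, h1 y hy, zero_add, add_zero] at h4
    exact keq (by rw [add_comm]; exact h4)
  have hinj : Function.Injective Φ := by
    rw [injective_iff_map_eq_zero]
    rintro ⟨y, hy⟩ h0
    have g1 : ∀ p : I, B (y (e p.1.1)) (e p.1.2) = 0 := fun p => congrFun (congrArg Prod.fst h0) p
    have g2 : ∀ p : I, B (y (e p.1.1)) (ψ (e p.1.2)) = 0 := fun p => congrFun (congrArg Prod.snd h0) p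
    have k1 : ∀ a b, B (y (e a)) (e b) = 0 := by
      intro a b
      rcases lt_trichotomy a b with hab | rfl | hab
      · exact g1 ⟨(a, b), hab⟩
      · exact h1 y hy _
      · rw [hsym y hy]
        exact g1 ⟨(b, a), hab⟩
    have k2 : ∀ a b, B (y (e a)) (ψ (e b)) = 0 := by
      intro a b
      rcases lt_trichotomy a b with hab | rfl | hab
      · exact g2 ⟨(a, b), hab⟩
      · exact h3 y hy _
      · rw [← h2 y hy, h.inv, hsym y hy]
        exact g2 ⟨(b, a), hab⟩
    have k3 : ∀ a b, B (y (ψ (e a))) (e b) = 0 := fun a b => by rw [hsym y hy]; exact k2 b a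
    have k4 : ∀ a b, B (y (ψ (e a))) (ψ (e b)) = 0 := fun a b => by rw [h2 y hy]; exact k1 a b
    apply Subtype.ext
    change y = 0
    refine LinearMap.ext fun u => ?_
    rw [LinearMap.zero_apply]
    apply h.nd
    intro w
    obtain ⟨a, b, rfl⟩ := he u
    obtain ⟨a', b', rfl⟩ := he w
    simp only [map_add, map_sum, map_smul, LinearMap.add_apply, LinearMap.sum_apply, LinearMap.smul_apply, k1, k2, k3, k4,
      smul_zero, Finset.sum_const_zero, add_zero]
  have h5 := LinearMap.finrank_le_finrank_of_injective hinj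
  rwa [finrank_prod, finrank_fintype_fun_eq_card, hI] at h5

/-- the three properties of a difference -/
theorem QS.diff (h : QS B Q ψ) {m y : Module.End K U} {c : K} (hm : ∀ u, B (m u) u = c * Q u)
    (hy : ∀ u, y u = ψ (m (ψ u)) + c • u + m u) :
    (∀ u, B (y u) u = 0) ∧ (∀ u w, B (y (ψ u)) (ψ w) = B (y u) w) ∧ ∀ u, B (y u) (ψ u) = 0 := by
  have hp : ∀ u w, B (m u) w + B (m w) u = c * B u w := by
    intro u w
    have h1 := hm (u + w)
    rw [h.pol] at h1
    simp only [map_add, LinearMap.add_apply] at h1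
    rw [hm, hm] at h1
    linear_combination h1
  refine ⟨fun u => ?_, fun u w => ?_, fun u => ?_⟩
  · rw [hy]
    simp only [map_add, map_smul, LinearMap.add_apply, LinearMap.smul_apply]
    rw [h.adj, hm, h.self, hm, h.iso, smul_zero, add_zero, kadd]
  · rw [hy, hy]
    simp only [map_add, map_smul, LinearMap.add_apply, LinearMap.smul_apply]
    rw [h.inv, h.isom, h.isom, ← h.adj (m (ψ u)) w, h.adj (m (ψ u)) w, ← h.adj]
    ring
  · rw [hy]
    simp only [map_add, map_smul, LinearMap.add_apply, LinearMap.smul_apply]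
    rw [h.isom]
    have h1 := hp (ψ u) u
    rw [h.symm (ψ u) u] at h1
    rw [smul_eq_mul, ← h1]
    have h2 := kadd (B (m (ψ u)) u)
    have h3 := kadd (B (m u) (ψ u))
    linear_combination h2 + h3

end one

section two

variable {K : Type*} [Field K] [CharP K 2] {U U' : Type*} [AddCommGroup U] [Module K U] [AddCommGroup U'] [Module K U']
  [FiniteDimensional K U] {B : LinearMap.BilinForm K U} {Q : U → K} {ψ : U →ₗ[K] U} {B' : LinearMap.BilinForm K U'}
  {Q' : U' → K} {ψ' : U' →ₗ[K] U'} {L : Type*} [AddCommGroup L] [Module K L] [FiniteDimensional K L]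

/-- **the fixed space of `z` has codimension at most 12** -/
theorem fix_le (h : QS B Q ψ) (h' : QS B' Q' ψ') (hU : finrank K U = 8) (hr : finrank K (LinearMap.range (ψ + 1)) = 4)
    (hc4 : ∃ u, B' u (ψ' u) ≠ 0) (z : L →ₗ[K] L) (ρ : L →ₗ[K] Module.End K U) (ρ' : L →ₗ[K] Module.End K U')
    (c c' : L → K) (hB : ∀ x u, B (ρ x u) u = c x * Q u) (hB' : ∀ x u, B' (ρ' x u) u = c' x * Q' u)
    (hz : ∀ x u, ρ (z x) u = ψ (ρ x (ψ u)) + c x • u) (hz' : ∀ x u, ρ' (z x) u = ψ' (ρ' x (ψ' u)) + c' x • u)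
    (hs : ∀ x, ρ (z x + x) = 0 → ∃ κ : K, ∀ u, ρ' (z x + x) u = κ • u)
    (hk : ∀ x, ρ (z x + x) = 0 → ρ' (z x + x) = 0 → z x + x = 0) :
    finrank K L ≤ 12 + finrank K (LinearMap.ker (z + 1)) := by
  let T : L →ₗ[K] Module.End K U := ρ ∘ₗ (z + 1)
  have hT : ∀ x, T x = ρ (z x + x) := fun x => rfl
  have hd : ∀ x, (∀ u, B (T x u) u = 0) ∧ (∀ u w, B (T x (ψ u)) (ψ w) = B (T x u) w) ∧ ∀ u, B (T x u) (ψ u) = 0 := by
    intro x
    refine h.diff (hB x) fun u => ?_
    rw [hT, map_add, LinearMap.add_apply, hz]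
  have h1 : finrank K (LinearMap.range T) ≤ 12 := by
    refine h.bound hU hr _ ?_ ?_ ?_
    · rintro _ ⟨x, rfl⟩
      exact (hd x).1
    · rintro _ ⟨x, rfl⟩
      exact (hd x).2.1
    · rintro _ ⟨x, rfl⟩
      exact (hd x).2.2
  have h2 : LinearMap.ker T ≤ LinearMap.ker (z + 1) := by
    intro x hx
    have h3 : ρ (z x + x) = 0 := hx
    obtain ⟨κ, hκ⟩ := hs x h3
    obtain ⟨u, hu⟩ := hc4
    have h4 := (h'.diff (hB' x) (y := ρ' (z x + x)) fun u => by rw [map_add, LinearMap.add_apply, hz']).2.2 u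
    rw [hκ, map_smul, LinearMap.smul_apply, smul_eq_mul] at h4
    have h5 : κ = 0 := (mul_eq_zero.1 h4).resolve_right hu
    have h6 : ρ' (z x + x) = 0 := LinearMap.ext fun u => by rw [hκ, h5, zero_smul, LinearMap.zero_apply]
    rw [LinearMap.mem_ker]
    exact hk x h3 h6
  have h3 := LinearMap.finrank_range_add_finrank_ker T
  have h4 := Submodule.finrank_mono h2
  omega

end two

end Cfsg.Agent.H198.L34
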