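import Cfsg.Agent.H633.L34.Psi
import Cfsg.Agent.H736.L34.ZFree
import Cfsg.Agent.H198.L34.CFour

/-!
# S5917, type D: the fixed space of `z` on `L₀` has dimension 20, abstract assembly (helper198)
-/

set_option autoImplicit false
set_option linter.unusedSectionVars false

namespace Cfsg.Agent.H198.L34

open Module Cfsg.Agent.H633.L34.Psi Cfsg.Agent.H400.L34.QFree

variable {K : Type*} [Field K] [CharP K 2] [IsAlgClosed K] {L M : Type*} [AddCommGroup L] [Module K L]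
  [FiniteDimensional K L] [AddCommGroup M] [Module K M] [FiniteDimensional K M]

/-- the frame of type `D` -/
structure Fr (L0 D : Submodule K L) (rho : Fin 3 → L →ₗ[K] M →ₗ[K] M) (b : M →ₗ[K] M →ₗ[K] K) (Q : M → K)
    (c : Fin 3 → L → K) (nw : Fin 8 → Fin 8) (lam : Fin 3 → Fin 8 → L → K) (i j : L →ₗ[K] L) (si sj : Fin 8 → Fin 8)
    (Gi Gj : Fin 3 → Fin 8 → M →ₗ[K] M) : Prop where
  hM : finrank K M = 8
  B : ∀ X, Blk L0 D (rho X) b Q (c X) nw (lam X)
  Ai : ∀ X, Act L0 D (rho X) (lam X) i si (Gi X)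
  Aj : ∀ X, Act L0 D (rho X) (lam X) j sj (Gj X)
  four : ∀ x ∈ L0, i (i (i (i x))) = x
  jj : ∀ x ∈ L0, j (j x) = i (i x)
  ji : ∀ x ∈ L0, j (i x) = i (i (i (j x)))
  si2 : ∀ w, si (si w) = nw w
  sj2 : ∀ w, sj (sj w) = nw w
  /-- the value of `lam` at the negative character -/
  key : ∀ X, ∀ x ∈ L0, lam X (nw 0) x = c X x
  /-- `z` is trivial on `L₀ / D` -/
  zD : ∀ x ∈ L0, i (i x) + x ∈ D
  scal : ∀ X X', ∀ d ∈ D, (∀ v, rho X d v = 0) → ∃ κ : K, ∀ v, rho X' d v = κ • v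
  faith : ∀ X X', X ≠ X' → ∀ d ∈ D, (∀ v, rho X d v = 0) → (∀ v, rho X' d v = 0) → d = 0

/-- the part of `L₀` which comes from the Steinberg modules -/
structure SS (L0 S : Submodule K L) (i j : L →ₗ[K] L) : Prop where
  le : S ≤ L0
  mi : ∀ x ∈ S, i x ∈ S
  mj : ∀ x ∈ S, j x ∈ S
  rk : 12 ≤ finrank K (S.map (i ∘ₗ i + 1))
  fix : ∀ y ∈ S, i y = y → j y = y → ∃ u ∈ S, TrL i j u = y

section

variable {L0 D : Submodule K L} {rho : Fin 3 → L →ₗ[K] M →ₗ[K] M} {b : M →ₗ[K] M →ₗ[K] K} {Q : M → K}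
  {c : Fin 3 → L → K} {nw : Fin 8 → Fin 8} {lam : Fin 3 → Fin 8 → L → K} {i j : L →ₗ[K] L} {si sj : Fin 8 → Fin 8}
  {Gi Gj : Fin 3 → Fin 8 → M →ₗ[K] M}

theorem finrank_map_le_map {A A' : Type*} [AddCommGroup A] [Module K A] [AddCommGroup A'] [Module K A'] (S : Submodule K L)
    (f : L →ₗ[K] A) (g : L →ₗ[K] A') (h : ∀ x ∈ S, g x = 0 → f x = 0) : finrank K (S.map f) ≤ finrank K (S.map g) := by
  have h1 := LinearMap.finrank_range_add_finrank_ker (f.domRestrict S)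
  have h2 := LinearMap.finrank_range_add_finrank_ker (g.domRestrict S)
  have h3 : LinearMap.ker (g.domRestrict S) ≤ LinearMap.ker (f.domRestrict S) := by
    rintro ⟨x, hx⟩ hx'
    rw [LinearMap.mem_ker, LinearMap.domRestrict_apply] at hx' ⊢
    exact h x hx hx'
  have h4 := Submodule.finrank_mono h3
  rw [LinearMap.range_domRestrict] at h1 h2
  omega

/-- what we know about `ψ` -/
structure Ps (L0 D : Submodule K L) (r : L →ₗ[K] M →ₗ[K] M) (b : M →ₗ[K] M →ₗ[K] K) (Q : M → K) (cX : L → K)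
    (i j : L →ₗ[K] L) (pi pj : M →ₗ[K] M) : Prop where
  ql : QL pi pj
  qs : QS b Q (pi ∘ₗ pi)
  bi : ∀ u w, b (pi u) (pi w) = b u w
  bj : ∀ u w, b (pj u) (pj w) = b u w
  key : ∀ x ∈ L0, ∀ v, r (i (i x)) v = pi (pi (r x (pi (pi v)))) + cX x • v
  di : ∀ d ∈ D, ∀ v, r (i d) (pi v) = pi (r d v)
  dj : ∀ d ∈ D, ∀ v, r (j d) (pj v) = pj (r d v)
  nil : ∀ x ∈ L0, IsNilpotent (r (TrL i j x) : Module.End K M)

theorem Fr.exists_ps (h : Fr L0 D rho b Q c nw lam i j si sj Gi Gj) (X : Fin 3) :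
    ∃ pi pj, Ps L0 D (rho X) b Q (c X) i j pi pj := by
  have hsq : ∀ a : K, ∃ r, r * r = a := fun a => by
    obtain ⟨r, hr⟩ := IsAlgClosed.exists_pow_nat_eq a (n := 2) (by norm_num)
    exact ⟨r, by rw [← pow_two, hr]⟩
  obtain ⟨pi, pj, hq, qi, qj, fi, fj, o1, -, hn⟩ := main' h.hM hsq (h.B X) (h.Ai X) (h.Aj X) h.four h.jj h.ji h.si2 h.sj2
  have hB := h.B X
  have iso : ∀ p : M →ₗ[K] M, (∀ v, Q (p v) = Q v) → ∀ u w, b (p u) (p w) = b u w := by
    intro p hp u w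
    have h1 := hB.pol (p u) (p w)
    rw [← map_add, hp, hp, hp, hB.pol] at h1
    exact (add_left_cancel h1).symm
  have p4 : ∀ v, pi (pi (pi (pi v))) = v := hq.zz
  refine ⟨pi, pj, ?_, ?_, iso pi qi, iso pj qj, ?_, ?_, ?_, hn⟩
  · refine ⟨fun v => ?_, p4, fun v => ?_⟩
    · rw [hq.jj]; rfl
    · have h1 : pj (pi v) = pi (pi (pi (pj v))) := hq.ji v
      rw [h1, p4]
  · refine ⟨fun v hv => hB.nd v fun w => by rw [hB.sym]; exact hv w, hB.pol, hq.zz, fun u => ?_⟩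
    rw [LinearMap.comp_apply, qi, qi]
  · intro x hx v
    have h1 := (fi.comp fi (h.Ai X).m0) 0 x hx (pi (pi v))
    change rho X (i (i x)) (pi (pi (pi (pi v)))) = pi (pi (rho X x (pi (pi v)))) +
      (lam X 0 x + lam X (si (si 0)) (i (i x))) • pi (pi (pi (pi v))) at h1
    rw [p4, h.si2, o1 x hx, hB.lam0 x hx, zero_add, h.key X x hx] at h1
    exact h1
  · intro d hd v
    rw [fi 0 d (hB.DL hd) v]
    change _ + (lam X 0 d + lam X (si 0) (i d)) • _ = _
    rw [hB.lamD 0 d hd, hB.lamD _ _ ((h.Ai X).mD d hd), add_zero, zero_smul, add_zero]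
  · intro d hd v
    rw [fj 0 d (hB.DL hd) v]
    change _ + (lam X 0 d + lam X (sj 0) (j d)) • _ = _
    rw [hB.lamD 0 d hd, hB.lamD _ _ ((h.Aj X).mD d hd), add_zero, zero_smul, add_zero]

theorem scalar_nil [Nontrivial M] {T : Module.End K M} {κ : K} (h : ∀ v, T v = κ • v) (hn : IsNilpotent T) : κ = 0 := by
  obtain ⟨n, hn⟩ := hn
  have h1 : ∀ m v, (T ^ m) v = κ ^ m • v := by
    intro m
    induction m with
    | zero => intro v; rw [pow_zero, pow_zero, one_smul]; rfl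
    | succ m ih => intro v; rw [pow_succ, Module.End.mul_apply, h, map_smul, ih, smul_smul, pow_succ']
  obtain ⟨v, hv⟩ := exists_ne (0 : M)
  have h2 := h1 n v
  rw [hn, LinearMap.zero_apply] at h2
  rcases smul_eq_zero.1 h2.symm with h3 | h3
  · exact pow_eq_zero_iff (by rintro rfl; simp at h3) |>.1 h3
  · exact absurd h3 hv

/-- `L₀` as a module over the quaternion group -/
theorem Fr.ql0 (h : Fr L0 D rho b Q c nw lam i j si sj Gi Gj) :
    QL (i.restrict (p := L0) (q := L0) (h.Ai 0).m0) (j.restrict (p := L0) (q := L0) (h.Aj 0).m0) where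
  sq := fun v => Subtype.ext (h.jj v.1 v.2)
  four := fun v => Subtype.ext (h.four v.1 v.2)
  comm := fun v => Subtype.ext (by
    change i (j v.1) = i (i (j (i v.1)))
    rw [h.ji v.1 v.2, h.four _ ((h.Ai 0).m0 _ ((h.Aj 0).m0 _ v.2))])

/-- **no scalar in the image of `z + 1` on `S`** -/
theorem Fr.no_scalar (h : Fr L0 D rho b Q c nw lam i j si sj Gi Gj) {S : Submodule K L} (hS : SS L0 S i j) (X : Fin 3)
    {x : L} (hx : x ∈ S) {κ : K} (hκ : ∀ v, rho X (i (i x) + x) v = κ • v) : i (i x) + x = 0 := by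
  have hnt : Nontrivial M := nontrivial_of_finrank_pos (R := K) (by rw [h.hM]; norm_num)
  obtain ⟨pi, pj, P⟩ := h.exists_ps X
  let N : Submodule K L :=
    { carrier := {y | (∃ x ∈ S, i (i x) + x = y) ∧ ∃ κ : K, ∀ v, rho X y v = κ • v}
      add_mem' := by
        rintro _ _ ⟨⟨x, hx, rfl⟩, κ, hκ⟩ ⟨⟨y, hy, rfl⟩, μ, hμ⟩
        refine ⟨⟨x + y, S.add_mem hx hy, by simp only [map_add]; abel⟩, κ + μ, fun v => ?_⟩
        rw [map_add, LinearMap.add_apply, hκ, hμ, add_smul]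
      zero_mem' := ⟨⟨0, S.zero_mem, by simp⟩, 0, fun v => by rw [map_zero, LinearMap.zero_apply, zero_smul]⟩
      smul_mem' := by
        rintro a _ ⟨⟨x, hx, rfl⟩, κ, hκ⟩
        refine ⟨⟨a • x, S.smul_mem a hx, by simp only [map_smul, smul_add]⟩, a * κ, fun v => ?_⟩
        rw [map_smul, LinearMap.smul_apply, hκ, smul_smul] }
  have hND : ∀ y ∈ N, y ∈ D := by
    rintro _ ⟨⟨x, hx, rfl⟩, -⟩
    exact h.zD x (hS.le hx)
  have hNS : ∀ y ∈ N, y ∈ S := by
    rintro _ ⟨⟨x, hx, rfl⟩, -⟩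
    exact S.add_mem (hS.mi _ (hS.mi _ hx)) hx
  have hNi : ∀ y ∈ N, i y ∈ N := by
    intro y hy
    have hyD := hND y hy
    obtain ⟨⟨x, hx, rfl⟩, κ, hκ⟩ := hy
    refine ⟨⟨i x, hS.mi _ hx, by rw [map_add]⟩, κ, fun v => ?_⟩
    have h1 : v = pi (pi (pi (pi v))) := (P.ql.four v).symm
    rw [h1, P.di _ hyD, hκ, map_smul]
  have hNj : ∀ y ∈ N, j y ∈ N := by
    intro y hy
    have hyD := hND y hy
    obtain ⟨⟨x, hx, rfl⟩, κ, hκ⟩ := hy
    have hxL := hS.le hx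
    refine ⟨⟨j x, hS.mj _ hx, ?_⟩, κ, fun v => ?_⟩
    · rw [map_add]
      congr 1
      have k1 : i x ∈ L0 := (h.Ai X).m0 x hxL
      have k2 : j x ∈ L0 := (h.Aj X).m0 x hxL
      rw [h.ji _ k1, h.ji _ hxL, h.four _ ((h.Ai X).m0 _ ((h.Ai X).m0 _ k2))]
    · have h1 : v = pj (pi (pi (pj v))) := by
        rw [← P.ql.sq (pj v), P.ql.sq (pj (pj v)), P.ql.sq v, P.ql.four]
      rw [h1, P.dj _ hyD, hκ, map_smul]
  by_contra hne
  have hW : N.comap L0.subtype ≠ ⊥ := by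
    intro h0
    apply hne
    have h1 : (⟨i (i x) + x, hS.le (hNS _ ⟨⟨x, hx, rfl⟩, κ, hκ⟩)⟩ : L0) ∈ N.comap L0.subtype := ⟨⟨x, hx, rfl⟩, κ, hκ⟩
    rw [h0, Submodule.mem_bot] at h1
    exact congrArg Subtype.val h1
  obtain ⟨y, hyW, hy0, hyi, hyj⟩ := h.ql0.exists_fix (W := N.comap L0.subtype) (fun v hv => hNi v.1 hv)
    (fun v hv => hNj v.1 hv) hW
  have hyN : y.1 ∈ N := hyW
  obtain ⟨u, hu, huy⟩ := hS.fix y.1 (hNS _ hyN) (congrArg Subtype.val hyi) (congrArg Subtype.val hyj)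
  have hyD := hND _ hyN
  obtain ⟨-, μ, hμ⟩ := hyN
  have hnil : ∀ X, IsNilpotent (rho X y.1 : Module.End K M) := by
    intro X
    obtain ⟨_, _, P'⟩ := h.exists_ps X
    rw [← huy]
    exact P'.nil u (hS.le hu)
  have g1 : ∀ v, rho X y.1 v = 0 := by
    intro v
    rw [hμ, scalar_nil hμ (hnil X), zero_smul]
  obtain ⟨X', hX'⟩ := (by decide : ∀ X : Fin 3, ∃ X', X ≠ X') X
  obtain ⟨ν, hν⟩ := h.scal X X' _ hyD g1
  have g2 : ∀ v, rho X' y.1 v = 0 := by
    intro v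
    rw [hν, scalar_nil hν (hnil X'), zero_smul]
  exact hy0 (Subtype.ext (h.faith X X' hX' _ hyD g1 g2))

/-- `z` is free on the modules -/
theorem Fr.free (h : Fr L0 D rho b Q c nw lam i j si sj Gi Gj) {S : Submodule K L} (hS : SS L0 S i j) {X : Fin 3}
    {pi pj : M →ₗ[K] M} (P : Ps L0 D (rho X) b Q (c X) i j pi pj) :
    finrank K (LinearMap.range (pi ∘ₗ pi + 1)) = 4 := by
  let Dd : Module.End K M →ₗ[K] Module.End K M :=
    { toFun := fun x => (pi ∘ₗ pi) ∘ₗ x ∘ₗ (pi ∘ₗ pi) + x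
      map_add' := fun x y => by
        refine LinearMap.ext fun u => ?_
        simp only [LinearMap.add_apply, LinearMap.comp_apply, map_add]
        abel
      map_smul' := fun a x => by
        refine LinearMap.ext fun u => ?_
        simp only [LinearMap.add_apply, LinearMap.comp_apply, LinearMap.smul_apply, map_smul, smul_add, RingHom.id_apply] }
  have hDd : ∀ x u, Dd x u = (pi ∘ₗ pi) (x ((pi ∘ₗ pi) u)) + x u := fun x u => rfl
  have hQS := P.qs
  refine Cfsg.Agent.H736.L34.z_free b hQS.self Q hQS.pol pi (pi ∘ₗ pi) (fun x => rfl) hQS.inv P.bi hQS.iso Dd hDd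
    (S.map (rho X)) ?_ h.hM ⟨fun v hv => hQS.nd v hv, fun v hv => hQS.nd v fun w => by rw [hQS.symm]; exact hv w⟩ ?_
  · rintro _ ⟨x, hx, rfl⟩
    exact ⟨c X x, fun u => (h.B X).hc x (hS.le hx) u⟩
  · have h1 : (S.map (rho X)).map Dd = S.map (Dd ∘ₗ rho X) := (Submodule.map_comp _ _ _).symm
    rw [h1]
    refine hS.rk.trans (finrank_map_le_map S _ _ fun x hx h0 => ?_)
    change i (i x) + x = 0
    refine h.no_scalar hS X hx (κ := c X x) fun v => ?_
    have h2 : pi (pi (rho X x (pi (pi v)))) + rho X x v = 0 := congrArg (fun T : Module.End K M => T v) h0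
    rw [map_add, LinearMap.add_apply, P.key x (hS.le hx)]
    rw [show pi (pi (rho X x (pi (pi v)))) + c X x • v + rho X x v =
      (pi (pi (rho X x (pi (pi v)))) + rho X x v) + c X x • v by abel, h2, zero_add]

/-- **`finrank = 20`** -/
theorem Fr.twenty (h : Fr L0 D rho b Q c nw lam i j si sj Gi Gj) {S : Submodule K L} (hS : SS L0 S i j)
    (h32 : finrank K L0 = 32) : finrank K ↥(L0 ⊓ LinearMap.ker (i ∘ₗ i + 1)) = 20 := by
  obtain ⟨pi, pj, P⟩ := h.exists_ps 0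
  obtain ⟨pi', pj', P'⟩ := h.exists_ps 1
  have hf := h.free hS P
  have hf' := h.free hS P'
  have hc4 : ∃ u, b u (pi' (pi' u)) ≠ 0 := by
    refine exists_c4 h.hM P'.ql (fun v hv => ?_) P'.qs P'.bi P'.bj
    have h1 : LinearMap.range (pi' ∘ₗ pi' + 1) = LinearMap.ker (pi' ∘ₗ pi' + 1) := by
      apply Submodule.eq_of_le_of_finrank_eq
      · rintro _ ⟨x, rfl⟩
        have e1 : ∀ u : M, u + u = 0 := fun u => by
          have h4 : (2 : K) • u = 0 := by rw [show (2 : K) = 0 from CharP.cast_eq_zero K 2, zero_smul]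
          rwa [two_smul] at h4
        rw [LinearMap.mem_ker]
        simp only [LinearMap.add_apply, Module.End.one_apply, LinearMap.comp_apply, map_add, P'.ql.four]
        rw [show x + pi' (pi' x) + (pi' (pi' x) + x) = (x + x) + (pi' (pi' x) + pi' (pi' x)) by abel, e1, e1, add_zero]
      · have h4 := LinearMap.finrank_range_add_finrank_ker (pi' ∘ₗ pi' + 1)
        rw [h.hM] at h4
        omega
    have e1 : v + v = 0 := by
      have h4 : (2 : K) • v = 0 := by rw [show (2 : K) = 0 from CharP.cast_eq_zero K 2, zero_smul]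
      rwa [two_smul] at h4
    have h2 : v ∈ LinearMap.ker (pi' ∘ₗ pi' + 1) := by
      rw [LinearMap.mem_ker]
      change pi' (pi' v) + v = 0
      rw [hv, e1]
    rw [← h1] at h2
    obtain ⟨w, hw⟩ := h2
    exact ⟨w, by rw [← hw, add_comm]; rfl⟩
  let f : L0 →ₗ[K] L := (i ∘ₗ i + 1).domRestrict L0
  have hfx : ∀ x : L0, f x = i (i x.1) + x.1 := fun x => rfl
  have hk : (LinearMap.ker f).map L0.subtype = L0 ⊓ LinearMap.ker (i ∘ₗ i + 1) := by
    ext x
    constructor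
    · rintro ⟨y, hy, rfl⟩
      exact ⟨y.2, hy⟩
    · rintro ⟨h1, h2⟩
      exact ⟨⟨x, h1⟩, h2, rfl⟩
  have hk' : finrank K ↥(L0 ⊓ LinearMap.ker (i ∘ₗ i + 1)) = finrank K (LinearMap.ker f) := by
    rw [← hk]
    exact Submodule.finrank_map_subtype_eq _ _
  have hrn := LinearMap.finrank_range_add_finrank_ker f
  have hr12 : 12 ≤ finrank K (LinearMap.range f) := by
    refine hS.rk.trans (Submodule.finrank_mono ?_)
    rintro _ ⟨x, hx, rfl⟩
    exact ⟨⟨x, hS.le hx⟩, rfl⟩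
  -- the upper bound
  have hzL : ∀ x ∈ L0, (i ∘ₗ i) x ∈ L0 := fun x hx => (h.Ai 0).m0 _ ((h.Ai 0).m0 x hx)
  let z : L0 →ₗ[K] L0 := (i ∘ₗ i).restrict hzL
  have hzx : ∀ x : L0, ((z x : L0) : L) = i (i x.1) := fun x => rfl
  have h5 := fix_le (L := L0) P.qs P'.qs h.hM hf hc4 z ((rho 0).comp L0.subtype) ((rho 1).comp L0.subtype)
    (fun x => c 0 x.1) (fun x => c 1 x.1) (fun x u => (h.B 0).hc x.1 x.2 u) (fun x u => (h.B 1).hc x.1 x.2 u)
    (fun x u => P.key x.1 x.2 u) (fun x u => P'.key x.1 x.2 u)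
    (fun x hx => h.scal 0 1 _ (h.zD x.1 x.2) fun v => congrArg (fun T : Module.End K M => T v) hx)
    (fun x hx hx' => Subtype.ext (h.faith 0 1 (by decide) _ (h.zD x.1 x.2)
      (fun v => congrArg (fun T : Module.End K M => T v) hx) (fun v => congrArg (fun T : Module.End K M => T v) hx')))
  have h6 : LinearMap.ker (z + 1) = LinearMap.ker f := by
    ext x
    rw [LinearMap.mem_ker, LinearMap.mem_ker, hfx]
    constructor
    · intro h1
      exact congrArg Subtype.val h1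
    · intro h1
      exact Subtype.ext h1
  rw [h6] at h5
  omega

end

end Cfsg.Agent.H198.L34
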